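import Mathlib.AlgebraicGeometry.Morphisms.SchemeTheoreticallyDominant
import Mathlib.AlgebraicGeometry.Morphisms.FiniteType
import Mathlib.AlgebraicGeometry.Morphisms.ClosedImmersion
import Mathlib.AlgebraicGeometry.Limits

/-!
# Geometric reducedness can be checked on the components of a reduced scheme
-/

set_option autoImplicit false
universe u
open CategoryTheory CategoryTheory.Limits AlgebraicGeometry

namespace Groth.Agent.Models.H554.CompRed

/-- If a finite family of quasi-compact morphisms `ι i : c i ⟶ Y` covers the reduced scheme `Y` and the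
base changes of all `c i` along the flat morphism `g` are reduced, so is the base change of `Y`. -/
theorem isReduced_of_surjective {Y S T : Scheme.{u}} (f : Y ⟶ S) (g : T ⟶ S) [Flat g]
    [IsReduced Y] {n : ℕ} (c : Fin n → Scheme.{u}) (ι : ∀ i, c i ⟶ Y) [∀ i, QuasiCompact (ι i)]
    (hcov : ∀ y : Y, ∃ i, y ∈ Set.range (ι i))
    (hr : ∀ i, IsReduced (pullback (ι i ≫ f) g)) : IsReduced (pullback f g) := by
  let h : ∐ c ⟶ Y := Sigma.desc ι
  have hι : ∀ i, Sigma.ι c i ≫ h = ι i := fun i => by simp [h]
  have hιx : ∀ i z, h (Sigma.ι c i z) = ι i z := fun i z => by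
    rw [← hι i]
    rfl
  have hs : Surjective h := ⟨fun y => by
    obtain ⟨i, z, hz⟩ := hcov y
    exact ⟨Sigma.ι c i z, (hιx i z).trans hz⟩⟩
  have : QuasiCompact h := ⟨fun U hU hU' => by
    have h1 : h ⁻¹' U = ⋃ i, Sigma.ι c i '' (ι i ⁻¹' U) := by
      ext z
      obtain ⟨i, w, rfl⟩ : ∃ (i : Fin n) (w : c i), Sigma.ι c i w = z := by
        obtain ⟨i, w, hw⟩ := (sigmaOpenCover c).exists_eq z
        exact ⟨i, w, hw⟩
      simp only [Set.mem_preimage, hιx, Set.mem_iUnion, Set.mem_image]
      constructor
      · intro hw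
        exact ⟨i, w, hw, rfl⟩
      · rintro ⟨j, w', hw', e⟩
        rw [← hιx, ← e, hιx]
        exact hw'
    rw [h1]
    exact isCompact_iUnion fun i =>
      (QuasiCompact.isCompact_preimage (f := ι i) U hU hU').image (Sigma.ι c i).continuous⟩
  have hd : IsSchemeTheoreticallyDominant h := .of_isDominant h
  have : IsReduced (pullback (h ≫ f) g) := by
    have key : ∀ i : Fin n, IsReduced (pullback (Sigma.ι c i ≫ h ≫ f) g) := by
      intro i
      rw [← Category.assoc, hι]
      exact hr i
    have : ∀ i, IsReduced ((Scheme.Pullback.openCoverOfLeft (sigmaOpenCover c) (h ≫ f) g).X i) :=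
      fun i => key i
    exact IsReduced.of_openCover _ (Scheme.Pullback.openCoverOfLeft (sigmaOpenCover c) (h ≫ f) g)
  have : IsReduced (pullback h (pullback.fst f g)) :=
    (ObjectProperty.prop_iff_of_iso (P := (IsReduced ·)) (pullbackRightPullbackFstIso f g h)).2
      this
  exact IsSchemeTheoreticallyDominant.isReduced (pullback.snd h (pullback.fst f g))

/-- A reduced scheme over a field `k` whose irreducible components have reduced base change to `K`
has reduced base change to `K`. -/
theorem isReduced_of_components (k K : Type u) [Field k] [Field K] [Algebra k K]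
    (Y : Scheme.{u}) (f : Y ⟶ Spec (CommRingCat.of k)) [LocallyOfFiniteType f] [IsReduced Y]
    {n : ℕ} (c : Fin n → Scheme.{u}) (ι : ∀ i, c i ⟶ Y) [∀ i, IsClosedImmersion (ι i)]
    [∀ i, IsIntegral (c i)]
    (hcomp : Set.range (fun i => Set.range (ι i)) = irreducibleComponents Y)
    (hr : ∀ i, IsReduced
      (pullback (ι i ≫ f) (Spec.map (CommRingCat.ofHom (algebraMap k K))))) :
    IsReduced (pullback f (Spec.map (CommRingCat.ofHom (algebraMap k K)))) := by
  have hflat : Flat (Spec.map (CommRingCat.ofHom (algebraMap k K))) := by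
    rw [Flat.SpecMap_iff]
    change RingHom.Flat (algebraMap k K)
    rw [RingHom.flat_algebraMap_iff]
    infer_instance
  refine isReduced_of_surjective f _ c ι (fun y => ?_) hr
  have h1 : irreducibleComponent y ∈ irreducibleComponents Y :=
    irreducibleComponent_mem_irreducibleComponents y
  rw [← hcomp] at h1
  obtain ⟨i, hi⟩ := h1
  exact ⟨i, by
    have h2 : y ∈ irreducibleComponent y := mem_irreducibleComponent
    rw [← hi] at h2
    exact h2⟩

end Groth.Agent.Models.H554.CompRed
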